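import Cfsg.Agent.H680.IF.EngA
import Cfsg.Agent.H209.IF.Kill

/-!
# S5719, `|A|` odd: base lemmas (helper460)

`IF A Γ`, `|A|` odd:
* `ne_conj` : the involutions of `Γ` are not inner;
* `comap_lt` : `(A.comap j).index ^ 6 < A.index` for `j : K →* T` with image fixed by an involution `σ ∈ Γ`;
* `odd_comap` : `|A.comap j|` is odd (`j` injective);
* `two_pow_lt` : `2 ^ m ∣ |K|` gives `(2 ^ m) ^ 6 < A.index`;
* `index_le_card` : `A.index ≤ |T|`.
-/

set_option autoImplicit false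
set_option linter.unusedSectionVars false

namespace Cfsg.Agent.H460.IFO

open Subgroup Cfsg.Agent.H209.Fxy

universe u v

variable {T : Type u} [Group T] {A : Subgroup T} {Γ : Subgroup (MulAut T)}

/-- `|A|` odd: the involutions of `Γ` are not inner. -/
theorem ne_conj (h : IF A Γ) (hO : Odd (Nat.card A)) {σ : MulAut T} (hσ : σ ∈ Γ) (h2 : orderOf σ = 2) (a : T) :
    σ ≠ MulAut.conj a := by
  rintro rfl
  have ha := (h.conj a).1 hσ
  have h1 : orderOf (MulAut.conj a) ∣ orderOf a := orderOf_map_dvd MulAut.conj a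
  have h3 : orderOf a ∣ Nat.card A := by
    have := orderOf_dvd_natCard (⟨a, ha⟩ : A)
    rwa [Subgroup.orderOf_mk] at this
  rw [h2] at h1
  exact (Nat.not_even_iff_odd.2 hO) (even_iff_two_dvd.2 (h1.trans h3))

/-- an outer involution of `Γ` -/
theorem exists_outer (h : IF A Γ) (hO : Odd (Nat.card A)) : ∃ σ ∈ Γ, orderOf σ = 2 ∧ ∀ a : T, σ ≠ MulAut.conj a := by
  obtain ⟨σ, hσ, h2, -⟩ := h.ex
  exact ⟨σ, hσ, h2, ne_conj h hO hσ h2⟩

variable {K : Type v} [Group K]

/-- **A group `K` fixed by the involution `σ`** (through `j : K →* T`): `|K : K ∩ A| ^ 6 < |T : A|`. -/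
theorem comap_lt [Finite T] (h : IF A Γ) {σ : MulAut T} (hσ : σ ∈ Γ) (h2 : orderOf σ = 2) (j : K →* T)
    (hj : ∀ k, σ (j k) = j k) : (A.comap j).index ^ 6 < A.index := by
  rw [Subgroup.index_comap]
  refine (Cfsg.Agent.H680.Fxy.IF.E1 h hσ h2 ?_).2
  rintro _ ⟨k, rfl⟩
  exact hj k

theorem odd_comap [Finite T] (hO : Odd (Nat.card A)) {j : K →* T} (hi : Function.Injective j) :
    Odd (Nat.card (A.comap j)) := by
  have h1 : Nat.card (A.comap j) ∣ Nat.card A := by
    have h2 : Nat.card (A.comap j) = Nat.card ((A.comap j).map j) :=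
      Nat.card_congr ((A.comap j).equivMapOfInjective j hi).toEquiv
    rw [h2]
    exact Subgroup.card_dvd_of_le (Subgroup.map_comap_le j A)
  exact hO.of_dvd_nat h1

theorem index_le_card [Finite T] (A : Subgroup T) : A.index ≤ Nat.card T :=
  Nat.le_of_dvd Nat.card_pos A.index_dvd_card

/-- a subgroup of odd order has index at least the 2-part -/
theorem two_pow_le_index [Finite K] {X : Subgroup K} (hX : Odd (Nat.card X)) {m : ℕ} (hm : 2 ^ m ∣ Nat.card K) :
    2 ^ m ≤ X.index := by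
  have h1 : 2 ^ m ∣ X.index := by
    rw [← Subgroup.card_mul_index X] at hm
    exact (Nat.Coprime.pow_left m (Nat.coprime_two_left.2 hX)).dvd_of_dvd_mul_left hm
  exact Nat.le_of_dvd (Nat.pos_of_ne_zero X.index_ne_zero_of_finite) h1

/-- **The 2-part**: `K` fixed by the involution `σ ∈ Γ`, `2 ^ m ∣ |K|`, `|A|` odd: `(2 ^ m) ^ 6 < |T : A|`. -/
theorem two_pow_lt [Finite T] (h : IF A Γ) (hO : Odd (Nat.card A)) {σ : MulAut T} (hσ : σ ∈ Γ) (h2 : orderOf σ = 2)
    (j : K →* T) (hi : Function.Injective j) (hj : ∀ k, σ (j k) = j k) {m : ℕ} (hm : 2 ^ m ∣ Nat.card K) :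
    (2 ^ m) ^ 6 < A.index := by
  have : Finite K := Finite.of_injective j hi
  exact (Nat.pow_le_pow_left (two_pow_le_index (odd_comap hO hi) hm) 6).trans_lt (comap_lt h hσ h2 j hj)

/-- the same with `|T|` -/
theorem false_of_two_pow [Finite T] (h : IF A Γ) (hO : Odd (Nat.card A)) {σ : MulAut T} (hσ : σ ∈ Γ)
    (h2 : orderOf σ = 2) (j : K →* T) (hi : Function.Injective j) (hj : ∀ k, σ (j k) = j k) {m : ℕ}
    (hm : 2 ^ m ∣ Nat.card K) (hT : Nat.card T ≤ (2 ^ m) ^ 6) : False :=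
  absurd ((two_pow_lt h hO hσ h2 j hi hj hm).trans_le (index_le_card A)) (not_lt.2 hT)

end Cfsg.Agent.H460.IFO
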