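import Cfsg.Agent.H249.Pi.FldType

/-!
# Automorphisms of `E₈(F)`, `F₄(F)` (helper460, S5719)

* `diag_inner` : diagonal automorphisms are inner (Cartan matrix of determinant one: `G₂`, `F₄`, `E₈`);
* `fac8` : every automorphism of `E₈(F)` is inner times field;
* `facF4` : the same for `F₄(F)`, odd characteristic (proof of helper470 / helper73).
-/

set_option autoImplicit false
set_option linter.unusedSectionVars false

namespace Cfsg.Agent.H460.IFO

open CoxeterSystem Subgroup Cfsg Cfsg.Lie Cfsg.Lie.ChevalleyDatum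
open Cfsg.Agent.ChevalleyStructure Cfsg.Agent.ChevalleyStructure.Elts Cfsg.Agent.ChevalleyStructure.CoxeterGeomTypes
open Cfsg.Agent.ChevalleyStructure.CoxeterGeom Cfsg.Agent.Nodes.RGDChev Cfsg.Agent.KFacts.RgdChevCoord
open Cfsg.Agent.CpAut.RgdUntw
open Cfsg.Agent.GpExc.Field (emb coe_emb coe_glMap)
open Cfsg.Agent.BpExc.FamExt Cfsg.Agent.BpExc.FamInst
open Cfsg.Agent.H79.SimpleGen Cfsg.Agent.H79.OutChev Cfsg.Agent.H79.FieldAuts Cfsg.Agent.H79.DiagAuts
  Cfsg.Agent.H79.FieldParam Cfsg.Agent.H79.EdgeSymm Cfsg.Agent.H79.DiagSymm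

universe u

/-- **Diagonal automorphisms are inner** if the Cartan matrix is unimodular. -/
theorem diag_inner {D : ChevalleyDatum} {l : ℕ} {M : CoxeterMatrix (Fin l)} (hp : IsType D l M)
    {B : Fin l → Fin l → ℤ} (hB : InvC D l 1 B) {F : Type u} [Field F] {d : MulAut ↥(D.group F)}
    (hd : D.IsDiagonalAut d) : ∃ c : ↥(D.group F), d = MulAut.conj c := by
  obtain ⟨t, -, ht⟩ := Cfsg.Agent.H296.Core.diag_ext hp (RingHom.id F) hB one_ne_zero (fun c _ => ⟨c, pow_one c⟩) hd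
  refine ⟨t, MulEquiv.ext fun a => ?_⟩
  have h1 : ∀ a : ↥(D.group F), emb hp.inList (RingHom.id F) a = a := by
    intro a
    apply Subtype.ext
    rw [coe_emb]
    apply Units.ext
    rw [coe_glMap]
    ext i j
    rfl
  have h2 := ht a
  rw [h1, h1] at h2
  exact h2

theorem inner8 {F : Type u} [Field F] {d : MulAut ↥(chevE8.group F)} (hd : chevE8.IsDiagonalAut d) :
    ∃ c : ↥(chevE8.group F), d = MulAut.conj c :=
  diag_inner Cfsg.Agent.BpExc.RowsUntw.e8T inv_E8 hd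

theorem inner4 {F : Type u} [Field F] {d : MulAut ↥(chevF4.group F)} (hd : chevF4.IsDiagonalAut d) :
    ∃ c : ↥(chevF4.group F), d = MulAut.conj c :=
  diag_inner Cfsg.Agent.BpExc.RowsUntw.f4T inv_F4 hd

theorem isDiag_one {D : ChevalleyDatum} (hD : InList D) {F : Type u} [Field F] :
    D.IsDiagonalAut (1 : MulAut ↥(D.group F)) :=
  (diagFacts hD F).isDiag _ _ (IsD.one hD)

/-- **Automorphisms of `E₈(F)`.** -/
theorem fac8 {F : Type u} [Field F] [Finite F] (θ : MulAut ↥(chevE8.group F)) :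
    ∃ (y : ↥(chevE8.group F)) (φ : MulAut ↥(chevE8.group F)), chevE8.IsFieldAut φ ∧ θ = MulAut.conj y * φ := by
  have hD : InList chevE8 := by simp [InList]
  obtain ⟨y, d, g, φ, hd, hg, hφ, e⟩ := Cfsg.Agent.H79.Steinberg.exists_fac_mul hD θ
  obtain ⟨π, hπs, hπ⟩ := isGraphAut_isGr hD hg
  obtain rfl := eq_one_E8 hπs
  have hg1 : g = 1 := isGr_one hπ
  obtain ⟨c, rfl⟩ := inner8 hd
  exact ⟨y * c, φ, hφ, by rw [e, hg1, mul_one, map_mul]⟩

/-- **Automorphisms of `F₄(F)`, odd characteristic** (proof of helper470, helper73). -/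
theorem facF4 {F : Type u} [Field F] [Finite F] (h2 : ringChar F ≠ 2) (θ : MulAut ↥(chevF4.group F)) :
    ∃ (y : ↥(chevF4.group F)) (φ : MulAut ↥(chevF4.group F)), chevF4.IsFieldAut φ ∧ θ = MulAut.conj y * φ := by
  have hD : InList chevF4 := by simp [InList]
  obtain ⟨x, π, -, -, h1, h2'⟩ := Cfsg.Agent.H70.ChevFix.exists_conj_perm hD θ
  set φ := MulAut.conj x * θ with hφdef
  have hφ : Cfsg.Agent.H70.ChevField.Perm chevF4 F φ π := ⟨h1, h2'⟩
  obtain ⟨c, σ, hc, hpos, hneg, hrel⟩ := Cfsg.Agent.H70.ChevField.exists_field hD hφ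
  have hedge : EdgePres chevF4 π := fun i j hij => Cfsg.Agent.H70.ChevField.cartan_eq_zero_iff hφ hD hij
  have hr : 0 < chevF4.rank := (RootComb.good_of_mem hD).rank_pos
  have hπ1 : π = 1 := by
    have h6 := edge_F4 hedge
    simp only [List.mem_cons, List.not_mem_nil, or_false] at h6
    rcases h6 with h6 | h7
    · have e0 : imgs (1 : Equiv.Perm (Fin chevF4.rank)) = [0, 1, 2, 3] := imgs_one
      exact eq_of_imgs (h6.trans e0.symm)
    · exfalso
      have p1 : ((π ⟨1, by decide⟩ : Fin chevF4.rank) : ℕ) = 2 := by rw [← imgs_getD, h7]; rfl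
      have p2 : ((π ⟨2, by decide⟩ : Fin chevF4.rank) : ℕ) = 1 := by rw [← imgs_getD, h7]; rfl
      have r12 := (show Rel chevF4 π σ from hrel).pow_eq (i := ⟨1, by decide⟩) (j := ⟨2, by decide⟩) (k := 2)
        (by decide) (by decide +kernel) (by rw [p1, p2]; decide +kernel)
      exact h2 (two_of_sq r12)
  subst hπ1
  obtain ⟨τ, hτ⟩ := exists_tau hD hr hedge hrel
  obtain ⟨δ, hδ, hδd⟩ := exists_isD (F := F) hD (fun j => Units.mk0 (c j) (hc _))
  let f : MulAut ↥(chevF4.group F) := fieldHom hD F τ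
  have hτ' : ∀ i t, σ i t = τ t := fun i t => by
    rw [hτ i t, Equiv.Perm.one_apply, graphExp_self, pow_one]
  have hg : φ = δ * f := by
    apply equiv_ext hD
    · intro i hi t
      have e1 : φ (xS hD (chevF4.simple i) t) = xS hD (chevF4.simple i) (c ⟨i, hi⟩ * σ ⟨i, hi⟩ t) := hpos ⟨i, hi⟩ t
      rw [e1, MulAut.mul_apply, fieldHom_xS hD _ (simple_lt hD hi), hτ']
      exact ((hδ ⟨i, hi⟩ (τ t)).1).symm
    · intro i hi t
      have e1 : φ (xS hD (chevF4.neg (chevF4.simple i)) t) =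
          xS hD (chevF4.neg (chevF4.simple i)) ((c ⟨i, hi⟩)⁻¹ * σ ⟨i, hi⟩ t) := hneg ⟨i, hi⟩ t
      rw [e1, MulAut.mul_apply, fieldHom_xS hD _ (neg_simple_lt hD hi), hτ']
      have := (hδ ⟨i, hi⟩ (τ t)).2
      simp only [Units.val_inv_eq_inv_val, Units.val_mk0] at this
      exact this.symm
  obtain ⟨b, rfl⟩ := inner4 hδd
  refine ⟨x⁻¹ * b, f, (isFieldAut_iff hD _).2 ⟨τ, rfl⟩, ?_⟩
  rw [map_mul, mul_assoc]
  rw [← hg, hφdef, ← mul_assoc, ← map_mul, inv_mul_cancel, map_one, one_mul]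

end Cfsg.Agent.H460.IFO
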