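import Cfsg.Agent.H460.IFO.Field
import Cfsg.Agent.H460.IFO.Fac
import Cfsg.Agent.H296.FFourFix
import Cfsg.Agent.S1068

/-!
# S5719: `KillO` for `E₈(q)` and `F₄(q)` (helper460)

* `e8_O`, `f4_O` : no counterexample with `|A|` odd in `E₈(F)`, `F₄(F)`, all finite `F`.
-/

set_option autoImplicit false
set_option linter.unusedSectionVars false

namespace Cfsg.Agent.H460.IFO

open Subgroup Cfsg Cfsg.Lie Cfsg.Lie.ChevalleyDatum
open Cfsg.Agent.H249.Pi.FldType Cfsg.Agent.H209.Fxy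
open Cfsg.Agent.CpAut.RgdUntw

universe u

/-- the common part: `σ = conj y * φ` -/
theorem false_of_innerField {D : ChevalleyDatum} (hE : Ex5 D) {F : Type u} [Field F] [Finite F]
    {A : Subgroup ↥(D.group F)} {Γ : Subgroup (MulAut ↥(D.group F))} (h : IF A Γ) (hO : Odd (Nat.card A))
    {σ : MulAut ↥(D.group F)} (hσ : σ ∈ Γ) (h2 : orderOf σ = 2) {y : ↥(D.group F)} {φ : MulAut ↥(D.group F)}
    (hφ : D.IsFieldAut φ) (e : σ = MulAut.conj y * φ) : False := by
  by_cases hφ1 : φ = 1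
  · subst hφ1
    rw [mul_one] at e
    exact ne_conj h hO hσ h2 y e
  · refine no_field hE h hO hσ h2 (y := y) (isDiag_one hE.inList) hφ hφ1 fun a => ?_
    rw [e]
    rfl

/-- **`KillO` for `E₈(F)`.** -/
theorem e8_O (F : Type u) [Field F] [Finite F] : KillO (chevE8.group F) := by
  intro A Γ h hO
  obtain ⟨σ, hσ, h2, -⟩ := exists_outer h hO
  obtain ⟨y, φ, hφ, e⟩ := fac8 σ
  exact false_of_innerField (by simp [Ex5]) h hO hσ h2 hφ e

open Cfsg.Agent.H296.FFour in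
/-- the graph case of `F₄` in characteristic two -/
theorem no_graph_F4 {F : Type u} [Field F] [Fintype F] [CharP F 2] {A : Subgroup ↥(chevF4.group F)}
    {Γ : Subgroup (MulAut ↥(chevF4.group F))} (h : IF A Γ) (hO : Odd (Nat.card A)) {σ : MulAut ↥(chevF4.group F)}
    (hσ : σ ∈ Γ) (h2 : orderOf σ = 2) {y : ↥(chevF4.group F)} {d g φ : MulAut ↥(chevF4.group F)}
    (hd : chevF4.IsDiagonalAut d) (hg : chevF4.IsGraphAut g) (hφ : chevF4.IsFieldAut φ) (hg1 : g ≠ 1)
    (hxy : ∀ a, σ a = y * d (g (φ a)) * y⁻¹) : False := by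
  have : Fact (Nat.Prime 2) := ⟨Nat.prime_two⟩
  have : PerfectRing F 2 := PerfectRing.ofFiniteOfIsReduced 2 F
  have hfin : Finite ↥(chevF4.group F) := inferInstance
  have hx : σ * σ = 1 := by rw [← pow_two, ← h2, pow_orderOf_eq_one]
  obtain ⟨m, τ, ζ, hK, hτ, hζ⟩ := Cfsg.Agent.H296.FFour.main hx hd hg hφ hg1 hxy
  obtain ⟨ε⟩ := fixed_equiv hK hτ
  have hcard : Nat.card ↥(fixedSubgroup (sg τ)) = Nat.card ↥(twistedF4 F (2 ^ m)) := Nat.card_congr ε.toEquiv
  have h3 := Cfsg.Agent.S1068.result hK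
  have hdvd : 2 ^ ((2 * m + 1) * 12) ∣ Nat.card ↥(fixedSubgroup (sg τ)) := by
    rw [hcard, h3, ← pow_mul]
    exact ⟨(2 ^ (2 * m + 1) - 1) * ((2 ^ (2 * m + 1)) ^ 3 + 1) * ((2 ^ (2 * m + 1)) ^ 4 - 1) * ((2 ^ (2 * m + 1)) ^ 6 + 1), by ring⟩
  refine false_of_two_pow h hO hσ h2
    ((ζ⁻¹ : MulAut ↥(chevF4.group F)).toMonoidHom.comp (fixedSubgroup (sg τ)).subtype)
    (fun a b hab => Subtype.ext ((ζ⁻¹ : MulAut ↥(chevF4.group F)).injective hab)) ?_ hdvd ?_
  · intro k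
    have h4 : ∀ a : ↥(chevF4.group F), σ ((ζ⁻¹ : MulAut ↥(chevF4.group F)) a) =
        (ζ⁻¹ : MulAut ↥(chevF4.group F)) (sg τ a) := by
      intro a
      rw [hζ, MulAut.mul_apply, MulAut.mul_apply]
      congr 2
      exact MulAut.apply_inv_self _ ζ a
    show σ ((ζ⁻¹ : MulAut ↥(chevF4.group F)) (k : ↥(chevF4.group F))) = (ζ⁻¹ : MulAut ↥(chevF4.group F)) (k : ↥(chevF4.group F))
    rw [h4]
    congr 1
    exact k.2
  · have h5 := card_le (D := chevF4) (by simp [Ex5]) F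
    have h6 : 3 * (chevF4.nroots / 2) = 72 := by decide
    rw [h6, Nat.card_eq_fintype_card (α := F), hK] at h5
    refine h5.trans (le_of_eq ?_)
    rw [← pow_mul, ← pow_mul]
    congr 1
    ring

/-- **`KillO` for `F₄(F)`.** -/
theorem f4_O (F : Type u) [Field F] [Finite F] : KillO (chevF4.group F) := by
  intro A Γ h hO
  have := Fintype.ofFinite F
  obtain ⟨σ, hσ, h2, -⟩ := exists_outer h hO
  by_cases hr : ringChar F = 2
  · have hc : CharP F 2 := hr ▸ ringChar.charP F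
    have hD : Cfsg.Agent.ChevalleyStructure.Elts.InList chevF4 := by simp [Cfsg.Agent.ChevalleyStructure.Elts.InList]
    obtain ⟨y, d, g, φ, hd, hg, hφ, e⟩ := Cfsg.Agent.H79.Steinberg.exists_fac hD σ
    by_cases hg1 : g = 1
    · obtain ⟨c, rfl⟩ := inner4 hd
      refine false_of_innerField (by simp [Ex5]) h hO hσ h2 (y := y * c) hφ ?_
      refine MulEquiv.ext fun a => ?_
      rw [MulAut.mul_apply, map_mul, MulAut.mul_apply]
      have := e a
      rw [hg1] at this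
      exact this
    · exact no_graph_F4 h hO hσ h2 hd hg hφ hg1 e
  · obtain ⟨y, φ, hφ, e⟩ := facF4 hr σ
    exact false_of_innerField (by simp [Ex5]) h hO hσ h2 hφ e

/-- the exact forms of the cells -/
example : ∀ (F : Type) [Field F] [Fintype F], IsSimpleGroup (chevF4.group F) → KillO (chevF4.group F) :=
  fun F _ _ _ => f4_O F

example : ∀ (F : Type) [Field F] [Fintype F], IsSimpleGroup (chevE8.group F) → KillO (chevE8.group F) :=
  fun F _ _ _ => e8_O F

end Cfsg.Agent.H460.IFO
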