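import Cfsg.Agent.H249.Pi.FldType
import Cfsg.Agent.H69.CosetPSL2

/-!
# S5719, `|A|` odd: involutory automorphisms of field type, the five exceptional Chevalley types (helper460)

`D ∈ {G₂, F₄, E₆, E₇, E₈}`, `F` finite, `x` an automorphism of order two of `D.group F`, `x = conj y * d * φ`,
`d` diagonal, `φ ≠ 1` a field automorphism.
* `exists_fix` : `|F| = |F₀| ^ 2` and an injective homomorphism `j : D.group F₀ → D.group F` with image fixed by `x`.
-/

set_option autoImplicit false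
set_option linter.unusedSectionVars false

namespace Cfsg.Agent.H460.IFO

open CoxeterSystem Subgroup Cfsg Cfsg.Lie Cfsg.Lie.ChevalleyDatum
open Cfsg.Agent.ChevalleyStructure Cfsg.Agent.ChevalleyStructure.Elts Cfsg.Agent.ChevalleyStructure.CoxeterGeom
  Cfsg.Agent.ChevalleyStructure.CoxeterGeomTypes
open Cfsg.Agent.Nodes.RGDChev Cfsg.Agent.KFacts.RgdChevCoord Cfsg.Agent.CpAut.RgdUntw
open Cfsg.Agent.GpExc.Field (glMap emb coe_emb glMap_xG emb_injective coe_glMap)
open Cfsg.Agent.BpExc.FamExt Cfsg.Agent.BpExc.FamField Cfsg.Agent.BpExc.Tow Cfsg.Agent.BpExc.TowChev Cfsg.Agent.BpExc.FamUntw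
  Cfsg.Agent.BpExc.FamInst Cfsg.Agent.H296.Core Cfsg.Agent.H249.Pi.FldType

universe u v

/-- the elements over the fixed field are fixed -/
theorem fld_emb {D : ChevalleyDatum} (hD : InList D) {F : Type u} [Field F] {τ : F ≃+* F} {F₀ : Subfield F}
    (h : ∀ a ∈ F₀, τ a = a) (k : ↥(D.group F₀)) : fld D τ (emb hD F₀.subtype k) = emb hD F₀.subtype k := by
  apply Subtype.ext
  rw [Cfsg.Agent.BpExc.FamTw.Gr.coe_fld, coe_emb]
  apply Units.ext
  rw [coe_glMap, coe_glMap, Matrix.map_map]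
  ext i j
  exact h _ (((k : GL D.Idx F₀) : Matrix D.Idx D.Idx F₀) i j).2

/-- **Automorphisms of order two of field type.** -/
theorem exists_fix {D : ChevalleyDatum} (hE : Ex5 D) {F : Type u} [Field F] [Finite F]
    {x : MulAut ↥(D.group F)} (hx : x * x = 1) {y : ↥(D.group F)} {d φ : MulAut ↥(D.group F)}
    (hd : D.IsDiagonalAut d) (hφ : D.IsFieldAut φ) (hφ1 : φ ≠ 1) (hxy : ∀ a, x a = y * d (φ a) * y⁻¹) :
    ∃ (F₀ : Subfield F) (j : ↥(D.group F₀) →* ↥(D.group F)), Nat.card F = Nat.card F₀ ^ 2 ∧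
      Function.Injective j ∧ ∀ k, x (j k) = j k := by
  obtain ⟨l, M, hp, m', B, hm', hB⟩ := hE.data
  obtain ⟨r, hr⟩ := CharP.exists F
  have : Fact r.Prime := ⟨CharP.char_is_prime F r⟩
  have h1 := charP_closure F r
  have hk := locFin_closure F r
  obtain ⟨n, hn0, hn⟩ := exists_card (F := F) r
  obtain ⟨τ, rfl⟩ := Cfsg.Agent.H296.ESixGF.eq_fld hp hφ
  have hτ1 : τ ≠ 1 := by
    rintro rfl
    exact hφ1 fld_one
  obtain ⟨m, hnm, hτ, -, ζ, hζ⟩ := Cfsg.Agent.H296.Core.main hp r (algebraMap F (AlgebraicClosure F))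
    (Cfsg.Agent.H296.ESixGF.gam_one hp r (algebraMap F (AlgebraicClosure F)) hk) hk (hE.center _) hB hm'
    (fun c _ => IsAlgClosed.exists_pow_nat_eq _ (Nat.pos_of_ne_zero hm')) (Or.inl rfl) hn hx hd (fun _ => hτ1) hxy
  rw [one_mul] at hζ
  have hτ2 : τ * τ = 1 := by
    ext a
    rw [RingAut.mul_apply, hτ, hτ, ← pow_mul, ← pow_add]
    have h2 := (forall_pow_iff r hn (m + m)).2 ⟨1, by omega⟩ a
    exact h2
  have ho : orderOf τ = 2 := orderOf_eq_prime (by rw [pow_two]; exact hτ2) hτ1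
  have hinj := emb_injective hp.inList (FixedPoints.subfield (Subgroup.zpowers τ) F).subtype
  refine ⟨FixedPoints.subfield (Subgroup.zpowers τ) F,
    (ζ⁻¹ : MulAut ↥(D.group F)).toMonoidHom.comp (emb hp.inList (FixedPoints.subfield (Subgroup.zpowers τ) F).subtype), ?_, ?_, ?_⟩
  · have h3 := Cfsg.Agent.H69.CosetP.card_fixed τ
    rwa [ho] at h3
  · intro a b hab
    exact hinj ((ζ⁻¹ : MulAut ↥(D.group F)).injective hab)
  · intro k
    have h4 : ∀ a : ↥(D.group F), x ((ζ⁻¹ : MulAut ↥(D.group F)) a) = (ζ⁻¹ : MulAut ↥(D.group F)) (fld D τ a) := by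
      intro a
      rw [hζ, MulAut.mul_apply, MulAut.mul_apply]
      congr 2
      exact MulAut.apply_inv_self _ ζ a
    show x ((ζ⁻¹ : MulAut ↥(D.group F)) _) = (ζ⁻¹ : MulAut ↥(D.group F)) _
    rw [h4]
    congr 1
    exact fld_emb hp.inList (fun a ha => Cfsg.Agent.H69.CosetP.mem_fixed.1 ha) k

end Cfsg.Agent.H460.IFO
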