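import Cfsg.Agent.H460.IFO.StIdx
import Cfsg.Agent.H460.IFO.FieldFix
import Cfsg.Agent.S1059
import Cfsg.Agent.S1062
import Cfsg.Agent.S1063
import Cfsg.Agent.S1064
import Cfsg.Agent.S1065

/-!
# S5719, `|A|` odd: no involution of field type, all `q` (helper460)

* `card_le` : `|D.group F| ≤ |F| ^ (3 N)`;
* `no_field` : `T = D.group F`, `D ∈ {G₂, F₄, E₆, E₇, E₈}`: no involution of `Γ` is of field type.
-/

set_option autoImplicit false
set_option linter.unusedSectionVars false

namespace Cfsg.Agent.H460.IFO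

open Cfsg Cfsg.Lie Cfsg.Agent.H249.Pi.FldType Cfsg.Agent.H209.Fxy

universe u

theorem card_le {D : ChevalleyDatum} (hE : Ex5 D) (F : Type u) [Field F] [Finite F] :
    Nat.card ↥(D.group F) ≤ Nat.card F ^ (3 * (D.nroots / 2)) := by
  have := Fintype.ofFinite F
  have hq : 0 < Fintype.card F := Fintype.card_pos
  have hq1 : 1 ≤ Fintype.card F := hq
  have hs : ∀ d, Fintype.card F ^ d - 1 ≤ Fintype.card F ^ d := fun d => Nat.sub_le _ _
  rw [Nat.card_eq_fintype_card (α := F)]
  unfold Ex5 at hE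
  simp only [List.mem_cons, List.not_mem_nil, or_false] at hE
  rcases hE with rfl | rfl | rfl | rfl | rfl
  · have h1 := Cfsg.Agent.S1059.result (F := F) rfl
    have h2 : 3 * (chevG2.nroots / 2) = 18 := by decide
    rw [h1, h2]
    calc _ ≤ Fintype.card F ^ 6 * Fintype.card F ^ 2 * Fintype.card F ^ 6 := by gcongr <;> exact hs _
      _ = Fintype.card F ^ 14 := by ring
      _ ≤ _ := Nat.pow_le_pow_right hq (by norm_num)
  · have h1 := Cfsg.Agent.S1062.result (F := F) rfl
    have h2 : 3 * (chevF4.nroots / 2) = 72 := by decide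
    rw [h1, h2]
    calc _ ≤ Fintype.card F ^ 24 * Fintype.card F ^ 2 * Fintype.card F ^ 6 * Fintype.card F ^ 8 * Fintype.card F ^ 12 := by
          gcongr <;> exact hs _
      _ = Fintype.card F ^ 52 := by ring
      _ ≤ _ := Nat.pow_le_pow_right hq (by norm_num)
  · have h1 := Cfsg.Agent.S1063.result (F := F) rfl
    have h2 : 3 * (chevE6.nroots / 2) = 108 := by decide
    have h3 : Nat.card ↥(chevE6.group F) ≤ Nat.gcd 3 (Fintype.card F - 1) * Nat.card ↥(chevE6.group F) :=
      Nat.le_mul_of_pos_left _ (Nat.gcd_pos_of_pos_left _ (by norm_num))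
    rw [h2]
    refine h3.trans ?_
    rw [h1]
    calc _ ≤ Fintype.card F ^ 36 * Fintype.card F ^ 2 * Fintype.card F ^ 5 * Fintype.card F ^ 6 * Fintype.card F ^ 8 *
          Fintype.card F ^ 9 * Fintype.card F ^ 12 := by gcongr <;> exact hs _
      _ = Fintype.card F ^ 78 := by ring
      _ ≤ _ := Nat.pow_le_pow_right hq (by norm_num)
  · have h1 := Cfsg.Agent.S1064.result (F := F) rfl
    have h2 : 3 * (chevE7.nroots / 2) = 189 := by decide
    have h3 : Nat.card ↥(chevE7.group F) ≤ Nat.gcd 2 (Fintype.card F - 1) * Nat.card ↥(chevE7.group F) :=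
      Nat.le_mul_of_pos_left _ (Nat.gcd_pos_of_pos_left _ (by norm_num))
    rw [h2]
    refine h3.trans ?_
    rw [h1]
    calc _ ≤ Fintype.card F ^ 63 * Fintype.card F ^ 2 * Fintype.card F ^ 6 * Fintype.card F ^ 8 * Fintype.card F ^ 10 *
          Fintype.card F ^ 12 * Fintype.card F ^ 14 * Fintype.card F ^ 18 := by gcongr <;> exact hs _
      _ = Fintype.card F ^ 133 := by ring
      _ ≤ _ := Nat.pow_le_pow_right hq (by norm_num)
  · have h1 := Cfsg.Agent.S1065.result (F := F) rfl
    have h2 : 3 * (chevE8.nroots / 2) = 360 := by decide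
    rw [h1, h2]
    calc _ ≤ Fintype.card F ^ 120 * Fintype.card F ^ 2 * Fintype.card F ^ 8 * Fintype.card F ^ 12 * Fintype.card F ^ 14 *
          Fintype.card F ^ 18 * Fintype.card F ^ 20 * Fintype.card F ^ 24 * Fintype.card F ^ 30 := by gcongr <;> exact hs _
      _ = Fintype.card F ^ 248 := by ring
      _ ≤ _ := Nat.pow_le_pow_right hq (by norm_num)

/-- **No involution of field type in `Γ`** (`|A|` odd, all `q`). -/
theorem no_field {D : ChevalleyDatum} (hE : Ex5 D) {F : Type u} [Field F] [Finite F] {A : Subgroup ↥(D.group F)}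
    {Γ : Subgroup (MulAut ↥(D.group F))} (h : IF A Γ) (hO : Odd (Nat.card A)) {σ : MulAut ↥(D.group F)} (hσ : σ ∈ Γ)
    (h2 : orderOf σ = 2) {y : ↥(D.group F)} {d φ : MulAut ↥(D.group F)} (hd : D.IsDiagonalAut d)
    (hφ : D.IsFieldAut φ) (hφ1 : φ ≠ 1) (hxy : ∀ a, σ a = y * d (φ a) * y⁻¹) : False := by
  have hfin : Finite ↥(D.group F) := inferInstance
  have hx : σ * σ = 1 := by rw [← pow_two, ← h2, pow_orderOf_eq_one]
  obtain ⟨F₀, j, hF, hi, hj⟩ := exists_fix hE hx hd hφ hφ1 hxy
  have hL : L7 D := by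
    have := hE.inList
    unfold L7
    unfold Ex5 at hE
    simp only [List.mem_cons, List.not_mem_nil, or_false] at hE ⊢
    tauto
  have h3 := (st_lt h hO hσ h2 hL j hi hj).trans_le (index_le_card A)
  have h4 := card_le hE F
  have h5 : (Nat.card F₀ ^ (D.nroots / 2)) ^ 6 = Nat.card F ^ (3 * (D.nroots / 2)) := by
    rw [hF, ← pow_mul, ← pow_mul]
    congr 1
    ring
  rw [h5] at h3
  exact absurd h3 (not_lt.2 h4)

end Cfsg.Agent.H460.IFO
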