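import Cfsg.Agent.H460.IFO.E6Std
import Cfsg.Agent.H692.IFO.TE6O

/-!
# The box (K) of helper692 (helper460, S5719)
-/

set_option autoImplicit false

namespace Cfsg.Agent.H460.IFO.Six

open Cfsg Cfsg.Lie

/-- **(K)** -/
theorem kForm : Cfsg.Agent.H692.IFO.TE6O.KForm := by
  intro F _ _ hr d' ε hε hd
  have hpf : Fact (ringChar F).Prime := ⟨CharP.char_is_prime F _⟩
  have hc : CharP F (ringChar F) := ringChar.charP F
  have hc' : ∀ i : Fin 6, (i : ℕ) ≠ 1 → (fun i : Fin 6 => if i = 1 then ε else 1) i = 1 := by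
    intro i hi
    exact if_neg fun h => hi (by rw [h]; rfl)
  obtain ⟨K, h1, h2, h3⟩ := exists_K (F := F) hr hc' hd
  exact ⟨↥K, inferInstance, inferInstance, K.subtype, K.subtype_injective, fun k => h1 k k.2,
    fun X hX => (h2 X hX).le, h3⟩

end Cfsg.Agent.H460.IFO.Six
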