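import Cfsg.Agent.S2311
import Cfsg.Agent.S2327
import Cfsg.Agent.Blocks.CentralProduct
import Cfsg.Agent.H460.IFO.Base

/-!
# S5719, `|A|` odd: the index of a subgroup of odd order (helper460)

* `even_sum` : `Σ z - z 1` is even for `z (x⁻¹) = z x`, `|X|` odd;
* `lt_index` : `χ` irreducible, integer valued, of odd degree `d > 1`: a subgroup of odd order has index `> d`;
* `st_le_index` : a subgroup of odd order of `D.group F` has index at least `|F| ^ N` (Steinberg character).
-/

set_option autoImplicit false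
set_option linter.unusedSectionVars false

namespace Cfsg.Agent.H460.IFO

open Cfsg Cfsg.Lie Module

universe u v

/-- **Parity.** -/
theorem even_sum {X : Type*} [Group X] [Fintype X] (hX : Odd (Nat.card X)) (z : X → ℤ) (hz : ∀ x, z x⁻¹ = z x) :
    Even (∑ x, z x - z 1) := by
  classical
  have h1 : ∑ x, z x - z 1 = ∑ x ∈ Finset.univ.erase (1 : X), z x := by
    rw [← Finset.add_sum_erase _ _ (Finset.mem_univ (1 : X))]
    ring
  rw [h1, ← ZMod.intCast_eq_zero_iff_even, Int.cast_sum]
  refine Finset.sum_involution (fun x _ => x⁻¹) ?_ ?_ ?_ ?_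
  · intro x _
    rw [hz]
    have : ((z x : ℤ) : ZMod 2) + z x = 0 := CharTwo.add_self_eq_zero _
    exact this
  · intro x hx _ h
    have h2 : x ^ 2 = 1 := by
      rw [pow_two]
      nth_rewrite 1 [← h]
      exact inv_mul_cancel x
    have h3 : orderOf x ∣ 2 := orderOf_dvd_of_pow_eq_one h2
    have h4 : orderOf x ∣ Nat.card X := orderOf_dvd_natCard x
    have h5 : orderOf x ∣ 1 := (Nat.coprime_two_left.2 hX) ▸ Nat.dvd_gcd h3 h4
    exact (Finset.mem_erase.1 hx).1 (orderOf_eq_one_iff.1 (Nat.dvd_one.1 h5))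
  · intro x hx
    exact Finset.mem_erase.2 ⟨inv_ne_one.2 (Finset.mem_erase.1 hx).1, Finset.mem_univ _⟩
  · intro x _
    exact inv_inv x

variable {K : Type u} [Group K] [Finite K]

/-- **The index of a subgroup of odd order.** -/
theorem lt_index {χ : K → ℂ} (hχ : IsIrrCharacter K χ) (z : K → ℤ) (hz : ∀ g, χ g = z g) (hinv : ∀ g, z g⁻¹ = z g)
    {d : ℕ} (hd : χ 1 = d) (hodd : Odd d) (h1 : 1 < d) {X : Subgroup K} (hX : Odd (Nat.card X)) : d < X.index := by
  classical
  obtain ⟨n, ρ, hirr, rfl⟩ := hχ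
  have hn : d = n := by
    rw [Representation.char_one, finrank_fin_fun] at hd
    exact_mod_cast hd.symm
  subst hn
  have := Fintype.ofFinite K
  have := Fintype.ofFinite X
  -- a fixed vector
  obtain ⟨v, hv0, hv⟩ : ∃ v : Fin d → ℂ, v ≠ 0 ∧ ∀ x ∈ X, ρ x v = v := by
    let σ : Representation ℂ X (Fin d → ℂ) := ρ.comp X.subtype
    have hc0 : ((Nat.card X : ℕ) : ℂ) ≠ 0 := Nat.cast_ne_zero.2 Nat.card_pos.ne'
    have : Invertible ((Nat.card X : ℕ) : ℂ) := invertibleOfNonzero hc0
    have h2 := Representation.card_inv_mul_sum_char_eq_finrank σ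
    have h3 : ∀ x : X, σ.character x = ((z x : ℤ) : ℂ) := fun x => hz x
    have h4 : (∑ x : X, z x : ℤ) = Nat.card X * finrank ℂ (Representation.invariants σ) := by
      have h5 : ((∑ x : X, z x : ℤ) : ℂ) = (Nat.card X : ℂ) * finrank ℂ (Representation.invariants σ) := by
        rw [← h2, ← mul_assoc, mul_inv_cancel₀ hc0, one_mul, Int.cast_sum]
        exact Finset.sum_congr rfl fun x _ => (h3 x).symm
      exact_mod_cast h5
    have h5 := even_sum hX (fun x : X => z x) (fun x => hinv x)
    have h6 : z 1 = d := by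
      have := hz 1
      rw [Representation.char_one, finrank_fin_fun] at this
      exact_mod_cast this.symm
    have h7 : finrank ℂ (Representation.invariants σ) ≠ 0 := by
      intro h0
      rw [h4, h0] at h5
      have h8 : z ((1 : X) : K) = d := h6
      rw [h8] at h5
      have h9 : Even (d : ℤ) := by simpa using h5
      exact (Nat.not_even_iff_odd.2 hodd) (by exact_mod_cast h9)
    have h8 : Nontrivial (Representation.invariants σ) := Module.nontrivial_of_finrank_pos (Nat.pos_of_ne_zero h7)
    obtain ⟨w, hw⟩ := exists_ne (0 : Representation.invariants σ)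
    refine ⟨w, fun h => hw (Subtype.ext h), fun x hx => ?_⟩
    exact (Representation.mem_invariants σ w.1).1 w.2 ⟨x, hx⟩
  -- the orbit map
  let c : K ⧸ X → (Fin d → ℂ) := Quotient.lift (fun g : K => ρ g v) (by
    intro a b hab
    have h2 : a⁻¹ * b ∈ X := QuotientGroup.leftRel_apply.1 hab
    have h3 := hv _ h2
    show ρ a v = ρ b v
    conv_lhs => rw [← h3]
    rw [← Module.End.mul_apply, ← map_mul, mul_inv_cancel_left])
  have hc : ∀ g : K, c (g : K ⧸ X) = ρ g v := fun g => rfl
  have hcm : ∀ (g : K) (q : K ⧸ X), ρ g (c q) = c (g • q) := by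
    intro g q
    induction q using QuotientGroup.induction_on with
    | H a =>
      rw [hc, ← Module.End.mul_apply, ← map_mul]
      rfl
  have htop : ⊤ ≤ Submodule.span ℂ (Set.range c) := by
    let S : Subrepresentation ρ := ⟨Submodule.span ℂ (Set.range c), by
      intro g w hw
      induction hw using Submodule.span_induction with
      | mem w hw =>
        obtain ⟨q, rfl⟩ := hw
        rw [hcm]
        exact Submodule.subset_span ⟨_, rfl⟩
      | zero => rw [map_zero]; exact Submodule.zero_mem _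
      | add a b _ _ ha hb => rw [map_add]; exact Submodule.add_mem _ ha hb
      | smul r a _ ha => rw [map_smul]; exact Submodule.smul_mem _ _ ha⟩
    rcases hirr.eq_bot_or_eq_top S with h2 | h2
    · exfalso
      have h3 : S.toSubmodule = ⊥ := by rw [h2]; rfl
      have h4 : v ∈ S.toSubmodule := Submodule.subset_span ⟨((1 : K) : K ⧸ X), by rw [hc, map_one]; rfl⟩
      rw [h3, Submodule.mem_bot] at h4
      exact hv0 h4
    · have h3 : S.toSubmodule = ⊤ := by rw [h2]; rfl
      exact h3.ge
  have hle : d ≤ X.index := by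
    have h2 := finrank_range_le_card (R := ℂ) c
    rw [Set.finrank, top_le_iff.1 htop, finrank_top, finrank_fin_fun] at h2
    rwa [Subgroup.index, Nat.card_eq_fintype_card]
  refine lt_of_le_of_ne hle fun heq => ?_
  have hli : LinearIndependent ℂ c := by
    refine linearIndependent_of_top_le_span_of_card_eq_finrank htop ?_
    rw [finrank_fin_fun, heq, Subgroup.index, Nat.card_eq_fintype_card]
  have hs0 : ∑ q, c q ≠ 0 := by
    intro h0
    have h2 := Fintype.linearIndependent_iff.1 hli (fun _ => 1) (by simpa using h0) ((1 : K) : K ⧸ X)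
    exact one_ne_zero h2
  -- the sum is invariant
  have hsi : ∀ g, ρ g (∑ q, c q) = ∑ q, c q := by
    intro g
    rw [map_sum]
    simp_rw [hcm]
    exact Fintype.sum_equiv (MulAction.toPerm g) _ _ fun q => rfl
  let S : Subrepresentation ρ := ⟨Submodule.span ℂ {∑ q, c q}, by
    intro g w hw
    obtain ⟨r, rfl⟩ := Submodule.mem_span_singleton.1 hw
    rw [map_smul, hsi]
    exact Submodule.smul_mem _ _ (Submodule.mem_span_singleton_self _)⟩
  rcases hirr.eq_bot_or_eq_top S with h2 | h2
  · have h3 : S.toSubmodule = ⊥ := by rw [h2]; rfl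
    exact hs0 (Submodule.span_singleton_eq_bot.1 h3)
  · have h3 : S.toSubmodule = ⊤ := by rw [h2]; rfl
    have h4 : finrank ℂ (Submodule.span ℂ {∑ q, c q}) = 1 := finrank_span_singleton hs0
    have h5 : Submodule.span ℂ {∑ q, c q} = ⊤ := h3
    rw [h5, finrank_top, finrank_fin_fun] at h4
    omega

/-! ### the Steinberg character -/

/-- the seven data -/
def L7 (D : ChevalleyDatum) : Prop := D ∈ [chevG2, chevB2, chevD4, chevF4, chevE6, chevE7, chevE8]

theorem fixedBy_inv {G Ω : Type*} [Group G] [MulAction G Ω] (g : G) :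
    MulAction.fixedBy Ω g⁻¹ = MulAction.fixedBy Ω g := by
  ext x
  rw [MulAction.mem_fixedBy, MulAction.mem_fixedBy, inv_smul_eq_iff]
  exact eq_comm

/-- the integral values of the Steinberg character -/
noncomputable def stZ (D : ChevalleyDatum) (F : Type u) [Field F] (g : ↥(D.group F)) : ℤ :=
  ∑ J ∈ (Finset.range D.rank).powerset,
    (-1 : ℤ) ^ J.card * (Nat.card (MulAction.fixedBy (↥(D.group F) ⧸ D.parabolicIn F J) g) : ℤ)

theorem stZ_eq (D : ChevalleyDatum) (F : Type u) [Field F] (g : ↥(D.group F)) :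
    D.steinbergCharacter F g = (stZ D F g : ℂ) := by
  unfold ChevalleyDatum.steinbergCharacter stZ fixedPointCharacter
  push_cast
  rfl

theorem stZ_inv (D : ChevalleyDatum) (F : Type u) [Field F] (g : ↥(D.group F)) : stZ D F g⁻¹ = stZ D F g := by
  unfold stZ
  simp only [fixedBy_inv]

/-- **A subgroup of odd order of `D.group F` has index at least `|F| ^ N`.** -/
theorem st_le_index {D : ChevalleyDatum} (hD : L7 D) {F : Type u} [Field F] [Finite F] {X : Subgroup ↥(D.group F)}
    (hX : Odd (Nat.card X)) : Nat.card F ^ (D.nroots / 2) ≤ X.index := by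
  have := Fintype.ofFinite F
  have hirr := Cfsg.Agent.S2311.result (F := F) D hD
  have hdeg := Cfsg.Agent.S2327.result (F := F) D hD
  rw [Nat.card_eq_fintype_card]
  have hdeg' : D.steinbergCharacter F 1 = ((Fintype.card F ^ (D.nroots / 2) : ℕ) : ℂ) := by
    rw [hdeg]
    push_cast
    rfl
  have hfin : Finite ↥(D.group F) := inferInstance
  rcases Nat.even_or_odd (Fintype.card F) with he | ho
  · have h2 : (2 : ℕ).Prime := Nat.prime_two
    obtain ⟨p, n, hp, hn, hq⟩ := (FiniteField.isPrimePow_card F)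
    have hp' : p.Prime := hp.nat_prime
    have h3 : 2 = p := (Nat.prime_dvd_prime_iff_eq h2 hp').1 (h2.dvd_of_dvd_pow (hq ▸ he.two_dvd))
    subst h3
    have h4 : Fintype.card F ^ (D.nroots / 2) ∣ Nat.card ↥(D.group F) :=
      Cfsg.Agent.Blocks.CentralProduct.degree_dvd_card hirr hdeg'
    rw [← hq, ← pow_mul] at h4 ⊢
    exact two_pow_le_index hX h4
  · have hN : D.nroots / 2 ≠ 0 := by
      unfold L7 at hD
      simp only [List.mem_cons, List.not_mem_nil, or_false] at hD
      rcases hD with rfl | rfl | rfl | rfl | rfl | rfl | rfl <;> decide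
    have h1 : 1 < Fintype.card F ^ (D.nroots / 2) := Nat.one_lt_pow hN Fintype.one_lt_card
    exact (lt_index hirr (stZ D F) (stZ_eq D F) (stZ_inv D F) hdeg' ho.pow h1 hX).le

open Cfsg.Agent.H209.Fxy in
/-- **The Steinberg bound**: `D.group F₀` fixed by the involution `σ ∈ Γ`, `|A|` odd: `(|F₀| ^ N) ^ 6 < |T : A|`. -/
theorem st_lt {T : Type v} [Group T] [Finite T] {A : Subgroup T} {Γ : Subgroup (MulAut T)} (h : IF A Γ)
    (hO : Odd (Nat.card A)) {σ : MulAut T} (hσ : σ ∈ Γ) (h2 : orderOf σ = 2) {D : ChevalleyDatum} (hD : L7 D)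
    {F₀ : Type u} [Field F₀] [Finite F₀] (j : ↥(D.group F₀) →* T) (hi : Function.Injective j)
    (hj : ∀ k, σ (j k) = j k) : (Nat.card F₀ ^ (D.nroots / 2)) ^ 6 < A.index :=
  (Nat.pow_le_pow_left (st_le_index hD (odd_comap hO hi)) 6).trans_lt (comap_lt h hσ h2 j hj)

end Cfsg.Agent.H460.IFO
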